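import Cfsg.Agent.Transfer.Tate
import Cfsg.Agent.Components.Basic
import Cfsg.Agent.CoprimeAction.Frattini
import Cfsg.Agent.PCore.Basic
import Cfsg.Agent.S0101
import Cfsg.Agent.PReduced.Basic

/-! Finite groups with a two-generated nonabelian Sylow subgroup whose Frattini subgroup is
core-free: the generalized Fitting subgroup. -/

set_option autoImplicit false

namespace CfsgLib.TwoGenCore

open Subgroup Cfsg
open scoped commutatorElement

section PGroup

variable {Q : Type*} [Group Q] [Finite Q] {p : ℕ} [hp : Fact p.Prime]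

theorem comm_of_gen {a b : Q} (hab : Commute a b) (h : closure ({a, b} : Set Q) = ⊤) :
    IsMulCommutative Q := by
  have hle : closure ({a, b} : Set Q) ≤ centralizer ({a, b} : Set Q) := (closure_le _).2 (by
    intro x hx
    refine mem_centralizer_iff.2 ?_
    rcases hx with rfl | rfl <;> rintro y (rfl | rfl) <;> first | rfl | exact hab.eq | exact hab.eq.symm)
  rw [← centralizer_closure, h] at hle
  exact ⟨⟨fun x y => mem_centralizer_iff.1 (hle (mem_top y)) x (mem_top x)⟩⟩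

theorem gen_pair (hd : (frattini Q).index = p ^ 2) {a g : Q} (ha : a ∉ frattini Q)
    (hg : g ∉ zpowers a ⊔ frattini Q) : closure ({a, g} : Set Q) = ⊤ := by
  set F := frattini Q
  set L := closure ({a, g} : Set Q) ⊔ F
  have h1 : F < zpowers a ⊔ F := lt_of_le_of_ne le_sup_right fun h =>
    ha (h ▸ mem_sup_left (mem_zpowers a))
  have h2 : zpowers a ⊔ F < L := lt_of_le_of_ne
    (sup_le_sup_right (zpowers_le.2 (subset_closure (by simp))) _)
    (fun h => hg (h ▸ mem_sup_left (subset_closure (by simp))))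
  apply frattini_nongenerating
  show L = ⊤
  rw [← index_eq_one]
  have e1 := relIndex_mul_index h1.le
  have e2 := relIndex_mul_index h2.le
  have n1 : F.relIndex (zpowers a ⊔ F) ≠ 1 := fun h => h1.not_ge (relIndex_eq_one.1 h)
  have n2 : (zpowers a ⊔ F).relIndex L ≠ 1 := fun h => h2.not_ge (relIndex_eq_one.1 h)
  rw [← e2, hd] at e1
  have d1 : F.relIndex (zpowers a ⊔ F) ∣ p ^ 2 := Dvd.intro _ e1
  have d2 : (zpowers a ⊔ F).relIndex L ∣ p ^ 2 := by
    rw [← e1]; exact (Dvd.intro _ rfl).mul_left _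
  obtain ⟨i, -, hi⟩ := (Nat.dvd_prime_pow hp.out).1 d1
  obtain ⟨j, -, hj⟩ := (Nat.dvd_prime_pow hp.out).1 d2
  have i0 : i ≠ 0 := by rintro rfl; exact n1 (by simpa using hi)
  have j0 : j ≠ 0 := by rintro rfl; exact n2 (by simpa using hj)
  have hle : p ^ 2 ≤ F.relIndex (zpowers a ⊔ F) * (zpowers a ⊔ F).relIndex L := by
    rw [hi, hj, ← pow_add]
    exact Nat.pow_le_pow_right hp.out.pos (by omega)
  have hpos : 0 < p ^ 2 := pow_pos hp.out.pos 2
  have hpos' : 0 < L.index := Nat.pos_of_ne_zero index_ne_zero_of_finite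
  rw [← mul_assoc] at e1
  nlinarith

theorem frattini_sup_zpowers_ne_top (hQ : IsPGroup p Q) (hd : (frattini Q).index = p ^ 2) (a : Q) :
    zpowers a ⊔ frattini Q ≠ ⊤ := by
  intro h
  have hz : zpowers a = ⊤ := frattini_nongenerating h
  have hsub : zpowers (a ^ p) ≤ frattini Q := zpowers_le.2 (CoprimeAction.pow_mem_frattini hQ a)
  have h1 : (frattini Q).index ∣ (zpowers (a ^ p)).index := index_dvd_of_le hsub
  have hcard : Nat.card Q = orderOf a := by rw [← Nat.card_zpowers, hz, card_top]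
  have hdvd : Nat.gcd (orderOf a) p ∣ orderOf a := Nat.gcd_dvd_left _ _
  have h2 : (zpowers (a ^ p)).index = Nat.gcd (orderOf a) p := by
    have h3 := card_mul_index (zpowers (a ^ p))
    rw [Nat.card_zpowers, hcard, orderOf_pow' a hp.out.ne_zero] at h3
    refine Nat.eq_of_mul_eq_mul_left (Nat.div_pos (Nat.le_of_dvd (orderOf_pos a) hdvd)
      (Nat.gcd_pos_of_pos_right _ hp.out.pos)) ?_
    rw [h3, Nat.div_mul_cancel hdvd]
  have := Nat.le_of_dvd hp.out.pos ((hd ▸ h1).trans (h2 ▸ Nat.gcd_dvd_right _ _))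
  nlinarith [hp.out.two_le]

theorem gen_of_frattini (hQ : IsPGroup p Q) (hd : (frattini Q).index = p ^ 2) {a : Q}
    (ha : a ∉ frattini Q) : ∃ g : Q, g ∉ zpowers a ⊔ frattini Q ∧ closure ({a, g} : Set Q) = ⊤ := by
  obtain ⟨g, -, hg⟩ := SetLike.exists_of_lt
    (lt_top_iff_ne_top.2 (frattini_sup_zpowers_ne_top hQ hd a))
  exact ⟨g, hg, gen_pair hd ha hg⟩

/-- A normal subgroup outside the Frattini subgroup is a cyclic supplement. -/
theorem exists_cyclic_supplement (hQ : IsPGroup p Q) (hd : (frattini Q).index = p ^ 2)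
    {A : Subgroup Q} (hA : ¬ A ≤ frattini Q) : ∃ g : Q, A ⊔ zpowers g = ⊤ := by
  obtain ⟨a, haA, ha⟩ := SetLike.not_le_iff_exists.1 hA
  obtain ⟨g, -, hg⟩ := gen_of_frattini hQ hd ha
  refine ⟨g, eq_top_iff.2 ?_⟩
  rw [← hg, closure_le]
  rintro x (rfl | rfl)
  · exact mem_sup_left haA
  · exact mem_sup_right (mem_zpowers _)

/-- Two normal subgroups meeting trivially cannot both avoid the Frattini subgroup. -/
theorem not_disjoint (hQ : IsPGroup p Q) (hd : (frattini Q).index = p ^ 2)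
    (hna : ¬ IsMulCommutative Q) {A B : Subgroup Q} [hAn : A.Normal] [hBn : B.Normal]
    (hA : ¬ A ≤ frattini Q) (hB : ¬ B ≤ frattini Q) : A ⊓ B ≠ ⊥ := by
  intro hAB
  apply hna
  have hcomm : ∀ x ∈ A, ∀ y ∈ B, Commute x y := fun x hx y hy =>
    commute_of_normal_of_disjoint A B hAn hBn (disjoint_iff.2 hAB) x y hx hy
  obtain ⟨a, haA, ha⟩ := SetLike.not_le_iff_exists.1 hA
  obtain ⟨b, hbB, hb⟩ := SetLike.not_le_iff_exists.1 hB
  obtain ⟨g, hgM, hg⟩ := gen_of_frattini hQ hd ha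
  set M := zpowers a ⊔ frattini Q
  have htop : A ⊔ zpowers g = ⊤ := by
    refine eq_top_iff.2 ?_
    rw [← hg, closure_le]
    rintro x (rfl | rfl)
    · exact mem_sup_left haA
    · exact mem_sup_right (mem_zpowers _)
  have hAM : A ≤ M := by
    intro x hx
    by_contra hxM
    have hA1 : A = ⊤ := eq_top_iff.2 (gen_pair hd ha hxM ▸ (closure_le _).2 (by
      rintro y (rfl | rfl) <;> assumption))
    rw [hA1, top_inf_eq] at hAB
    exact hB (hAB ▸ bot_le)
  by_cases hbM : b ∈ M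
  · obtain ⟨a', ha', z, hz, hbz⟩ := mem_sup_of_normal_left.1 (htop ▸ mem_top b : b ∈ A ⊔ zpowers g)
    obtain ⟨j, rfl⟩ := mem_zpowers_iff.1 hz
    have e : g * b * g⁻¹ * b⁻¹ = g * a' * g⁻¹ * a'⁻¹ := by rw [← hbz]; group
    have h1 : g * b * g⁻¹ * b⁻¹ ∈ A ⊓ B := mem_inf.2
      ⟨e ▸ mul_mem (hAn.conj_mem a' ha' g) (inv_mem ha'), mul_mem (hBn.conj_mem b hbB g) (inv_mem hbB)⟩
    rw [hAB, mem_bot, e] at h1
    have hga : Commute g a' := mul_inv_eq_iff_eq_mul.1 (mul_inv_eq_one.1 h1)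
    have hgjM : g ^ j ∈ M := by
      rw [show g ^ j = a'⁻¹ * b by rw [← hbz]; group]
      exact mul_mem (inv_mem (hAM ha')) hbM
    have hgj : g ^ j ∈ frattini Q := by
      have hjp : (p : ℤ) ∣ j := by
        by_contra hjp
        obtain ⟨s, t, hst⟩ := ((Nat.prime_iff_prime_int.1 hp.out).coprime_iff_not_dvd.2 hjp).symm
        apply hgM
        have : g = (g ^ j) ^ s * (g ^ p) ^ t := by
          rw [← zpow_natCast g p, ← zpow_mul, ← zpow_mul, ← zpow_add, mul_comm j s,
            mul_comm (p : ℤ) t, hst, zpow_one]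
        rw [this]
        exact mul_mem (zpow_mem hgjM s)
          (mem_sup_right (zpow_mem (CoprimeAction.pow_mem_frattini hQ g) t))
      obtain ⟨k, rfl⟩ := hjp
      rw [zpow_mul, zpow_natCast]
      exact zpow_mem (CoprimeAction.pow_mem_frattini hQ g) k
    have ha'F : a' ∉ frattini Q := fun h => hb (hbz ▸ mul_mem h hgj)
    exact comm_of_gen hga.symm (gen_pair hd ha'F fun h =>
      hgM ((sup_le (zpowers_le.2 (hAM ha')) le_sup_right) h))
  · exact comm_of_gen (hcomm a haA b hbB) (gen_pair hd ha hbM)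

end PGroup

section Main

theorem mem_of_cyclic {G : Type*} [Group G] [Finite G] {p : ℕ} [hp : Fact p.Prime] {g v z : G}
    (hv : v ∈ zpowers g) (hz : z ∈ zpowers g) (hvp : v ^ p = 1) (hzp : z ^ p = 1) (hz1 : z ≠ 1) :
    v ∈ zpowers z := by
  obtain ⟨a, rfl⟩ := (isOfFinOrder_of_finite g).mem_powers_iff_mem_zpowers.2 hv
  obtain ⟨b, rfl⟩ := (isOfFinOrder_of_finite g).mem_powers_iff_mem_zpowers.2 hz
  simp only [← pow_mul] at hvp hzp
  obtain ⟨d, hd⟩ : p ∣ orderOf g := by
    have h1 : orderOf (g ^ b) = p := orderOf_eq_prime (by rw [← pow_mul]; exact hzp) hz1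
    exact h1 ▸ orderOf_pow_dvd b
  have hda : d ∣ a := Nat.dvd_of_mul_dvd_mul_left hp.out.pos
    (by rw [← hd, mul_comm p a]; exact orderOf_dvd_of_pow_eq_one hvp)
  have hdb : d ∣ b := Nat.dvd_of_mul_dvd_mul_left hp.out.pos
    (by rw [← hd, mul_comm p b]; exact orderOf_dvd_of_pow_eq_one hzp)
  obtain ⟨a', rfl⟩ := hda
  obtain ⟨b', rfl⟩ := hdb
  have hgd : (g ^ d) ^ p = 1 := by rw [← pow_mul, mul_comm, ← hd, pow_orderOf_eq_one]
  have hb' : ¬ p ∣ b' := fun ⟨c, hc⟩ => hz1 (show g ^ (d * b') = 1 by rw [pow_mul, hc, pow_mul, hgd, one_pow])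
  obtain ⟨c, hc⟩ := exists_pow_eq_self_of_coprime (x := g ^ d) (n := b')
    (((hp.out.coprime_iff_not_dvd.2 hb').symm).of_dvd_right (orderOf_dvd_of_pow_eq_one hgd))
  show g ^ (d * a') ∈ zpowers (g ^ (d * b'))
  rw [pow_mul, pow_mul, ← hc]
  refine pow_mem (pow_mem ?_ c) a'
  rw [hc]
  exact mem_zpowers _

variable {G : Type*} [Group G] [Finite G] {p : ℕ} [hp : Fact p.Prime] (P : Sylow p G)

/-- The Frattini subgroup of the Sylow subgroup, inside `G`. -/
abbrev phi : Subgroup G := (frattini ↥(P : Subgroup G)).map (P : Subgroup G).subtype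

omit [Finite G] hp P in
theorem map_prod_of_comm {R M : Type*} [CommGroup R] [Group M] {ι : Type*} [Fintype ι] (π : R →* M)
    (f : ι → R) (c : M) (h : ∀ i, π (f i) = c) : π (∏ i, f i) = c ^ Fintype.card ι := by
  classical
  rw [← Finset.card_univ]
  induction (Finset.univ : Finset ι) using Finset.induction with
  | empty => simp
  | insert i s hi ih => rw [Finset.prod_insert hi, map_mul, h, ih, Finset.card_insert_of_notMem hi, pow_succ']

theorem frattini_le_phi {H : Subgroup G} (hHP : H ≤ (P : Subgroup G)) :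
    (frattini ↥H).map H.subtype ≤ phi P := by
  set N := (frattini ↥(P : Subgroup G)).comap (inclusion hHP)
  haveI : N.Normal := inferInstance
  have h : frattini ↥H ≤ N := by
    refine CoprimeAction.frattini_le_of_elementary (p := p) N ?_ fun x => ?_
    · rw [← map_le_iff_le_comap]
      refine le_trans ?_ (CoprimeAction.commutator_le_frattini' P.isPGroup')
      rw [commutator_def, map_commutator, commutator_def]
      exact commutator_mono le_top le_top
    · show inclusion hHP (x ^ p) ∈ frattini _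
      rw [map_pow]
      exact CoprimeAction.pow_mem_frattini P.isPGroup' _
  rintro _ ⟨x, hx, rfl⟩
  exact ⟨inclusion hHP x, h hx, rfl⟩

/-- Tate's criterion for a subgroup normalized by the Sylow subgroup. -/
theorem tate_le {N : Subgroup G} (hPN : (P : Subgroup G) ≤ normalizer (N : Set G))
    (h : N ⊓ (P : Subgroup G) ≤ phi P) : Cfsg.HasNormalPComplement p N := by
  set L := N ⊔ (P : Subgroup G)
  let PL : Sylow p L := P.subtype le_sup_right
  haveI : (N.subgroupOf L).Normal :=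
    normal_subgroupOf_of_le_normalizer (sup_le le_normalizer hPN)
  have h1 : Cfsg.HasNormalPComplement p ↥(N.subgroupOf L) := by
    refine Transfer.tate PL (N.subgroupOf L) ?_
    intro y hy
    obtain ⟨z, hz, hzy⟩ := h (mem_inf.2 ⟨(mem_inf.1 hy).1, (mem_inf.1 hy).2⟩)
    let e : (P : Subgroup G) ≃* (PL : Subgroup L) :=
      (subgroupOfEquivOfLe (le_sup_right : (P : Subgroup G) ≤ L)).symm
    refine ⟨e z, ?_, Subtype.ext hzy⟩
    exact frattini_le_comap_frattini_of_surjective (φ := e.toMonoidHom) e.surjective hz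
  exact (Transfer.hasNormalPComplement_congr (subgroupOfEquivOfLe (le_sup_left : N ≤ L))).1 h1

/-- A nontrivial subnormal subgroup normalized by `P` meets `P` outside the Frattini subgroup. -/
theorem not_le_phi (hcore : Cfsg.pPrimeCore p G = ⊥) (hfrat : (phi P).normalCore = ⊥)
    {N : Subgroup G} (hNs : N.IsSubnormal) (hPN : (P : Subgroup G) ≤ normalizer (N : Set G))
    (hN : ¬ IsPGroup p N ∨ (N.Normal ∧ N ≠ ⊥)) : ¬ N ⊓ (P : Subgroup G) ≤ phi P := by
  intro h
  have hc := tate_le P hPN h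
  obtain ⟨k, hk⟩ := Transfer.index_pResidual (p := p) (G := N)
  obtain ⟨Q⟩ : Nonempty (Sylow p N) := inferInstance
  obtain hR := (Transfer.hasNormalPComplement_iff).1 hc
  set R := (Cfsg.pResidual p N).map N.subtype
  haveI := Transfer.pResidual_characteristic (p := p) (G := N)
  have hR1 : R = ⊥ := by
    rw [eq_bot_iff, ← hcore]
    refine Components.subnormal_le_pPrimeCore
      (Components.subnormal_map_subtype (K := N) (normal_of_characteristic (H := Cfsg.pResidual p N)).isSubnormal hNs) ?_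
    rw [card_map_of_injective Subtype.val_injective]
    exact PCore.coprime_of_not_dvd hR
  rw [map_eq_bot_iff_of_injective _ Subtype.val_injective] at hR1
  have hNp : IsPGroup p N := by
    rw [hR1, index_bot] at hk
    exact IsPGroup.of_card hk
  obtain ⟨hNn, hNe⟩ := hN.resolve_left (not_not.2 hNp)
  apply hNe
  rw [eq_bot_iff, ← hfrat]
  refine normal_le_normalCore.2 ?_
  rw [inf_eq_left.2 (hNp.le_sylow_of_normal P)] at h
  exact h

theorem inf_ne_bot (hna : ¬ IsMulCommutative (P : Subgroup G))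
    (hd : (frattini ↥(P : Subgroup G)).index = p ^ 2) {A B : Subgroup G}
    (hPA : (P : Subgroup G) ≤ normalizer (A : Set G)) (hPB : (P : Subgroup G) ≤ normalizer (B : Set G))
    (hA : ¬ A ⊓ (P : Subgroup G) ≤ phi P) (hB : ¬ B ⊓ (P : Subgroup G) ≤ phi P) : A ⊓ B ≠ ⊥ := by
  intro h
  haveI : (A.subgroupOf (P : Subgroup G)).Normal := normal_subgroupOf_of_le_normalizer hPA
  haveI : (B.subgroupOf (P : Subgroup G)).Normal := normal_subgroupOf_of_le_normalizer hPB
  have hne : ∀ X : Subgroup G, ¬ X ⊓ (P : Subgroup G) ≤ phi P →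
      ¬ X.subgroupOf (P : Subgroup G) ≤ frattini ↥(P : Subgroup G) := by
    intro X hX hle
    exact hX fun x hx => ⟨⟨x, (mem_inf.1 hx).2⟩, hle (mem_inf.1 hx).1, rfl⟩
  refine not_disjoint P.isPGroup' hd hna (hne A hA) (hne B hB) (eq_bot_iff.2 fun x hx => ?_)
  have : (x : G) ∈ A ⊓ B := mem_inf.2 ⟨(mem_inf.1 hx).1, (mem_inf.1 hx).2⟩
  rw [h, mem_bot] at this
  exact mem_bot.2 (Subtype.ext this)

theorem le_normalizer_of_normal (X : Subgroup G) {N : Subgroup G} [N.Normal] :
    X ≤ normalizer (N : Set G) := by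
  rw [normalizer_eq_top]; exact le_top

/-- Two nontrivial normal subgroups meet. -/
theorem normal_inf_ne_bot (hna : ¬ IsMulCommutative (P : Subgroup G))
    (hd : (frattini ↥(P : Subgroup G)).index = p ^ 2) (hcore : Cfsg.pPrimeCore p G = ⊥)
    (hfrat : (phi P).normalCore = ⊥) {A B : Subgroup G} [hA : A.Normal] [hB : B.Normal]
    (hA0 : A ≠ ⊥) (hB0 : B ≠ ⊥) : A ⊓ B ≠ ⊥ :=
  inf_ne_bot P hna hd (le_normalizer_of_normal _) (le_normalizer_of_normal _)
    (not_le_phi P hcore hfrat hA.isSubnormal (le_normalizer_of_normal _) (Or.inr ⟨hA, hA0⟩))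
    (not_le_phi P hcore hfrat hB.isSubnormal (le_normalizer_of_normal _) (Or.inr ⟨hB, hB0⟩))

theorem fitting_le_pCore (hcore : Cfsg.pPrimeCore p G = ⊥) :
    Cfsg.fittingSubgroup G ≤ Cfsg.pCore p G := by
  rw [Components.fittingSubgroup_eq_iSup]
  refine iSup_le fun q => ?_
  rcases eq_or_ne (q : ℕ) p with h | h
  · rw [h]
  · haveI : Fact (q : ℕ).Prime := ⟨Nat.prime_of_mem_primeFactors q.2⟩
    refine le_trans ?_ bot_le
    rw [← hcore]
    refine PCore.le_pPrimeCore (Subgroup.sSup_normal _ fun _ h => h.1) ?_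
    obtain ⟨n, hn⟩ := IsPGroup.iff_card.1 (PCore.isPGroup_pCore (q : ℕ) G)
    rw [hn]
    exact Nat.Coprime.pow_left n ((Nat.coprime_primes Fact.out hp.out).2 h)

/-- A nontrivial normal `p`-subgroup is unique below `O_p(G)`. -/
theorem eq_pCore (hna : ¬ IsMulCommutative (P : Subgroup G))
    (hd : (frattini ↥(P : Subgroup G)).index = p ^ 2) (hcore : Cfsg.pPrimeCore p G = ⊥)
    (hfrat : (phi P).normalCore = ⊥) {N : Subgroup G} [hNn : N.Normal] (hN : N ≠ ⊥)
    (hNR : N ≤ Cfsg.pCore p G) : N = Cfsg.pCore p G := by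
  classical
  set R := Cfsg.pCore p G with hRdef
  haveI hRn : R.Normal := Subgroup.sSup_normal _ fun _ h => h.1
  have hRp : IsPGroup p R := PCore.isPGroup_pCore p G
  have hRP : R ≤ (P : Subgroup G) := hRp.le_sylow_of_normal P
  have hF : (frattini ↥R).map R.subtype = ⊥ := by
    rw [eq_bot_iff, ← hfrat]
    haveI : ((frattini ↥R).map R.subtype).Normal := inferInstance
    exact normal_le_normalCore.2 (frattini_le_phi P hRP)
  rw [map_eq_bot_iff_of_injective _ Subtype.val_injective] at hF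
  have hRc : ∀ x ∈ R, ∀ y ∈ R, x * y = y * x := by
    intro x hx y hy
    have h := CoprimeAction.commutator_le_frattini' hRp (commutator_mem_commutator
      (mem_top (⟨x, hx⟩ : R)) (mem_top (⟨y, hy⟩ : R)))
    rw [hF, mem_bot, commutatorElement_eq_one_iff_mul_comm] at h
    exact congrArg Subtype.val h
  have hRexp : ∀ x ∈ R, x ^ p = 1 := by
    intro x hx
    have h := CoprimeAction.pow_mem_frattini hRp (⟨x, hx⟩ : R)
    rw [hF, mem_bot] at h
    exact congrArg Subtype.val h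
  by_contra hne
  obtain ⟨r, hrR, hrN⟩ := SetLike.exists_of_lt (lt_of_le_of_ne hNR hne)
  haveI : (N.subgroupOf (P : Subgroup G)).Normal := inferInstance
  obtain ⟨g, hg⟩ := exists_cyclic_supplement P.isPGroup' hd
    (A := N.subgroupOf (P : Subgroup G)) fun hle =>
      not_le_phi P hcore hfrat hNn.isSubnormal (le_normalizer_of_normal _) (Or.inr ⟨hNn, hN⟩)
        fun x hx => ⟨⟨x, (mem_inf.1 hx).2⟩, hle (mem_inf.1 hx).1, rfl⟩
  have hdec : ∀ y : (P : Subgroup G), ∃ n ∈ N, ∃ k : ℤ, (y : G) = n * (g : G) ^ k := by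
    intro y
    obtain ⟨n, hn, z, hz, hy⟩ := mem_sup_of_normal_left.1 (hg ▸ mem_top y :
      y ∈ N.subgroupOf (P : Subgroup G) ⊔ zpowers g)
    obtain ⟨k, rfl⟩ := mem_zpowers_iff.1 hz
    exact ⟨n, hn, k, by rw [← hy]; simp⟩
  obtain ⟨n0, hn0, k0, hr⟩ := hdec ⟨r, hRP hrR⟩
  set z := (g : G) ^ k0 with hzdef
  have hr' : r = n0 * z := hr
  have hzR : z ∈ R := by
    rw [show z = n0⁻¹ * r by rw [hr']; group]
    exact mul_mem (inv_mem (hNR hn0)) hrR
  have hzN : z ∉ N := fun h => hrN (hr' ▸ mul_mem hn0 h)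
  have hzP : ∀ y ∈ (P : Subgroup G), y * z = z * y := by
    intro y hy
    obtain ⟨n, hn, k, hk⟩ := hdec ⟨y, hy⟩
    have hk' : y = n * (g : G) ^ k := hk
    have h1 : Commute (n : G) z := hRc n (hNR hn) z hzR
    have h2 : Commute ((g : G) ^ k) z := ((Commute.refl (g : G)).zpow_zpow k k0)
    rw [hk']
    exact (h1.mul_left h2).eq
  -- every element of `R` lies in a coset `z ^ k N`
  have hcl : ∀ x ∈ R, ∃ k : ℕ, x * (z ^ k)⁻¹ ∈ N := by
    intro x hx
    obtain ⟨n, hn, k, hk⟩ := hdec ⟨x, hRP hx⟩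
    have hk' : x = n * (g : G) ^ k := hk
    have hgk : (g : G) ^ k ∈ R := by
      rw [show (g : G) ^ k = n⁻¹ * x by rw [hk']; group]
      exact mul_mem (inv_mem (hNR hn)) hx
    suffices h : ∃ j : ℕ, (g : G) ^ k * (z ^ j)⁻¹ ∈ N by
      obtain ⟨j, hj⟩ := h
      exact ⟨j, by rw [hk', mul_assoc]; exact mul_mem hn hj⟩
    have hz1 : z ≠ 1 := fun h => hzN (h ▸ one_mem N)
    have : (g : G) ^ k ∈ zpowers z := mem_of_cyclic (zpow_mem (mem_zpowers _) k)
      (zpow_mem (mem_zpowers _) k0) (hRexp _ hgk) (hRexp z hzR) hz1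
    obtain ⟨j, hj⟩ := (isOfFinOrder_of_finite z).mem_powers_iff_mem_zpowers.2 this
    exact ⟨j, by rw [show (g : G) ^ k = z ^ j from hj.symm, mul_inv_cancel]; exact one_mem N⟩
  -- averaging over the cosets of `P`
  haveI : IsMulCommutative R := ⟨⟨fun a b => Subtype.ext (hRc a a.2 b b.2)⟩⟩
  letI : CommGroup R := { (inferInstance : Group R) with mul_comm := fun a b => Subtype.ext (hRc a a.2 b b.2) }
  letI : Fintype (G ⧸ (P : Subgroup G)) := Fintype.ofFinite _
  have huniq : ∀ (x : G) (m n : ℕ), x * z ^ m * x⁻¹ * (x * z ^ n * x⁻¹)⁻¹ ∈ N →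
      x * z ^ m * x⁻¹ = x * z ^ n * x⁻¹ := by
    intro x m n h
    by_contra hne'
    have h1 : z ^ m * (z ^ n)⁻¹ ∈ N := by
      have := hNn.conj_mem _ h x⁻¹
      simpa [mul_assoc] using this
    obtain ⟨w, hw⟩ := (isOfFinOrder_of_finite z).mem_powers_iff_mem_zpowers.2
      (mul_mem (pow_mem (mem_zpowers z) m) (inv_mem (pow_mem (mem_zpowers z) n)))
    rw [← hw] at h1
    by_cases hpw : p ∣ w
    · obtain ⟨c, rfl⟩ := hpw
      have hw' : (1 : G) = z ^ m * (z ^ n)⁻¹ := by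
        rw [← hw]
        show (1 : G) = z ^ (p * c)
        rw [pow_mul, hRexp z hzR, one_pow]
      exact hne' (by rw [mul_inv_eq_one.1 hw'.symm])
    · apply hzN
      obtain ⟨c, hc⟩ := exists_pow_eq_self_of_coprime (x := z) (n := w)
        (((hp.out.coprime_iff_not_dvd.2 hpw).symm).of_dvd_right (orderOf_dvd_of_pow_eq_one (hRexp z hzR)))
      rw [← hc]; exact pow_mem h1 c
  have hex : ∀ x : G, ∃ m : ℕ, x * z ^ m * x⁻¹ * z⁻¹ ∈ N := by
    intro x
    obtain ⟨k, hk⟩ := hcl (x⁻¹ * z * x) (by simpa using hRn.conj_mem z hzR x⁻¹)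
    refine ⟨k, ?_⟩
    have h2 := hNn.conj_mem _ (inv_mem hk) x
    have e : x * (x⁻¹ * z * x * (z ^ k)⁻¹)⁻¹ * x⁻¹ = x * z ^ k * x⁻¹ * z⁻¹ := by group
    rwa [e] at h2
  choose m hm using hex
  let f : G ⧸ (P : Subgroup G) → R := fun q =>
    ⟨q.out * z ^ m q.out * q.out⁻¹, hRn.conj_mem _ (pow_mem hzR _) _⟩
  have hfu : ∀ (x : G) (k : ℕ) (j : ℕ), x * z ^ j * x⁻¹ * (z ^ k)⁻¹ ∈ N →
      x * z ^ j * x⁻¹ = (f (x : G ⧸ (P : Subgroup G)) : G) ^ k := by
    intro x k j h
    set t := (x : G ⧸ (P : Subgroup G)).out with ht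
    obtain ⟨y, hy⟩ := QuotientGroup.mk_out_eq_mul (P : Subgroup G) x
    have hfx : (f (x : G ⧸ (P : Subgroup G)) : G) = x * z ^ m t * x⁻¹ := by
      show t * z ^ m t * t⁻¹ = _
      generalize m t = μ
      rw [ht, hy]
      have hc : (y : G) * z ^ μ = z ^ μ * y := ((Commute.pow_right (hzP y y.2) _) : Commute _ _).eq
      calc x * y * z ^ μ * (x * y)⁻¹ = x * ((y : G) * z ^ μ) * (y : G)⁻¹ * x⁻¹ := by group
        _ = _ := by rw [hc]; group
    rw [hfx, conj_pow, ← pow_mul]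
    refine huniq x j (m t * k) ?_
    have h1 : x * z ^ m t * x⁻¹ * z⁻¹ ∈ N := by
      have := hm t
      rwa [show t * z ^ m t * t⁻¹ = x * z ^ m t * x⁻¹ from hfx] at this
    rw [← QuotientGroup.eq_one_iff] at h h1 ⊢
    rw [QuotientGroup.mk_mul, QuotientGroup.mk_inv, mul_inv_eq_one] at h h1 ⊢
    rw [h, pow_mul, ← conj_pow, QuotientGroup.mk_pow, QuotientGroup.mk_pow, h1]
  set w := ∏ q, f q with hwdef
  have hwconj : ∀ y : G, y * (w : G) * y⁻¹ ∈ zpowers (w : G) := by
    intro y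
    obtain ⟨k, hk⟩ := hcl (y * z * y⁻¹) (hRn.conj_mem z hzR y)
    let φ : R →* R :=
      { toFun := fun x => ⟨y * x * y⁻¹, hRn.conj_mem _ x.2 y⟩
        map_one' := Subtype.ext (by simp)
        map_mul' := fun a b => Subtype.ext (by simp [mul_assoc]) }
    have h : φ w = w ^ k := by
      rw [hwdef, map_prod, ← Finset.prod_pow]
      refine Fintype.prod_equiv (MulAction.toPerm y) _ _ fun q => Subtype.ext ?_
      show y * (q.out * z ^ m q.out * q.out⁻¹) * y⁻¹ = (f (y • q) : G) ^ k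
      rw [show y * (q.out * z ^ m q.out * q.out⁻¹) * y⁻¹ = y * q.out * z ^ m q.out * (y * q.out)⁻¹ by group,
        show y • q = ((y * q.out : G) : G ⧸ (P : Subgroup G)) by
          conv_lhs => rw [← QuotientGroup.out_eq' q]
          rfl]
      refine hfu _ k _ ?_
      have h1 := hm q.out
      have h2 := hNn.conj_mem _ h1 y
      have e : y * q.out * z ^ m q.out * (y * q.out)⁻¹ * (z ^ k)⁻¹ =
          y * (q.out * z ^ m q.out * q.out⁻¹ * z⁻¹) * y⁻¹ * (y * z * y⁻¹ * (z ^ k)⁻¹) := by group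
      rw [e]
      exact mul_mem h2 hk
    exact (show y * (w : G) * y⁻¹ = (w : G) ^ k from congrArg Subtype.val h) ▸
      pow_mem (mem_zpowers _) k
  have hW : (zpowers (w : G)).Normal := ⟨fun a ha y => by
    obtain ⟨i, rfl⟩ := mem_zpowers_iff.1 ha
    rw [← conj_zpow]; exact zpow_mem (hwconj y) i⟩
  have hwN : (w : G) ∉ N := by
    intro h
    let π : R →* G ⧸ N := (QuotientGroup.mk' N).comp R.subtype
    have h1 : π w = (z : G ⧸ N) ^ Fintype.card (G ⧸ (P : Subgroup G)) := by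
      have h2 : ∀ q, π (f q) = (z : G ⧸ N) := fun q => by
        have := hm q.out
        rw [← QuotientGroup.eq_one_iff, QuotientGroup.mk_mul, QuotientGroup.mk_inv, mul_inv_eq_one] at this
        exact this
      rw [hwdef, map_prod_of_comm π f (z : G ⧸ N) h2]
    have h3 : π w = 1 := (QuotientGroup.eq_one_iff _).2 h
    rw [h1, ← QuotientGroup.mk_pow, QuotientGroup.eq_one_iff] at h3
    apply hzN
    have hcard : (Fintype.card (G ⧸ (P : Subgroup G))).Coprime p := by
      rw [← Nat.card_eq_fintype_card]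
      exact PCore.coprime_of_not_dvd P.not_dvd_index
    obtain ⟨c, hc⟩ := exists_pow_eq_self_of_coprime (x := z)
      (hcard.of_dvd_right (orderOf_dvd_of_pow_eq_one (hRexp z hzR)))
    rw [← hc]; exact pow_mem h3 c
  haveI := hW
  have hw1 : zpowers (w : G) ≠ ⊥ := fun h => hwN (by
    have := mem_zpowers (w : G); rw [h, mem_bot] at this; rw [this]; exact one_mem N)
  refine normal_inf_ne_bot P hna hd hcore hfrat hN hw1 (eq_bot_iff.2 ?_)
  intro x hx
  obtain ⟨hxN, hxw⟩ := mem_inf.1 hx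
  obtain ⟨i, rfl⟩ := (isOfFinOrder_of_finite (w : G)).mem_powers_iff_mem_zpowers.2 hxw
  by_cases hpi : p ∣ i
  · obtain ⟨c, rfl⟩ := hpi
    simp [pow_mul, hRexp _ w.2]
  · exfalso
    obtain ⟨c, hc⟩ := exists_pow_eq_self_of_coprime (x := (w : G)) (n := i)
      (((hp.out.coprime_iff_not_dvd.2 hpi).symm).of_dvd_right (orderOf_dvd_of_pow_eq_one (hRexp _ w.2)))
    exact hwN (hc ▸ pow_mem hxN c)

theorem center_inf_le_phi (P : Sylow p G) {E R : Subgroup G} [hE : E.Normal]
    (hperf : ⁅E, E⁆ = E) (hRE : R ≤ E) (hRc : ∀ r ∈ R, ∀ e ∈ E, e * r = r * e)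
    (hRP : R ≤ (P : Subgroup G)) : R ≤ phi P := by
  have hc : commutator E = ⊤ := by
    apply map_injective E.subtype_injective
    rw [commutator_def, map_commutator, ← MonoidHom.range_eq_map, E.range_subtype, hperf]
  set Z := R.subgroupOf E
  have hZc : Z ≤ center E := fun r hr => mem_center_iff.2 fun e => Subtype.ext (hRc r hr e e.2)
  haveI : Z.Normal := ⟨fun r hr e => by
    rw [show e * r * e⁻¹ = r by rw [mem_center_iff.1 (hZc hr) e, mul_inv_cancel_right]]; exact hr⟩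
  obtain ⟨Q, hQ⟩ := IsPGroup.exists_le_sylow (G := E) ((P.isPGroup'.to_le hRP).comap_subtype (K := E))
  obtain ⟨Q0, hQ0⟩ : ∃ Q0 : Sylow p E, (Q0 : Subgroup E) = (P : Subgroup G).subgroupOf E := by
    obtain ⟨Q1, hQ1⟩ := PReduced.exists_sylow_inf P E
    exact ⟨Q1, by rw [hQ1, inf_subgroupOf_right]⟩
  intro r hr
  have h1 : (⟨r, hRE hr⟩ : E) ∈ (QuotientGroup.mk' Z).ker ⊓ (Q0 : Subgroup E) := by
    refine mem_inf.2 ⟨?_, ?_⟩
    · rw [QuotientGroup.ker_mk']; exact hr
    · rw [hQ0]; exact hRP hr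
  obtain ⟨y, hy, hye⟩ := Cfsg.Agent.S0101.result (QuotientGroup.mk' Z) (QuotientGroup.mk'_surjective Z)
    (by rw [QuotientGroup.ker_mk']; exact hZc) hc Q0 h1
  have hle : (Q0 : Subgroup E).map E.subtype ≤ (P : Subgroup G) := by
    rw [hQ0]; rintro _ ⟨x, hx, rfl⟩; exact hx
  refine frattini_le_phi P hle ?_
  let e := (Q0 : Subgroup E).equivMapOfInjective E.subtype E.subtype_injective
  refine ⟨e y, frattini_le_comap_frattini_of_surjective (φ := e.toMonoidHom) e.surjective hy, ?_⟩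
  show E.subtype ((y : E)) = r
  rw [show (y : E) = ⟨r, hRE hr⟩ from hye]
  rfl

end Main

end CfsgLib.TwoGenCore
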